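import Mathlib
import Cfsg.Agent.Lib.E62.FiveB

/-!
# Elements of order five of `²E₆(2)`: the centralizer
-/

set_option autoImplicit false
set_option Elab.async false

namespace CfsgLib.E62

open scoped MatrixGroups
open Cfsg.Lie CfsgLib.Chev CfsgLib.ChevInv CfsgLib.Twist CfsgLib.Stein CfsgLib.RGD CfsgLib.Weyl CfsgLib.Lang

local notation "Φ" => rootSys rtOKE6
local notation "S" => stSys rtOKE6
local notation "smap" => Matrix.SpecialLinearGroup.map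

variable {F : Type*} [Field F]

/-- an element of order five of `SL₂(4)` -/
def yM (ω : F) : SL(2, F) := slX 1 * slY ω

/-- an element of order five -/
noncomputable def xx (ω : F) : GL chevE6.Idx F := A1 F (yM ω) * A6 F (yM (ω ^ 2))

theorem map_yM {K : Type*} [Field K] (f : F →+* K) (ω : F) : smap f (yM ω) = yM (f ω) := by
  rw [yM, map_mul, map_slX, map_slY, map_one, yM]

theorem glm_xx {K : Type*} [Field K] (f : F →+* K) (ω : F) : glm chevE6 f (xx ω) = xx (f ω) := by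
  rw [xx, map_mul, glm_A1, glm_A6, map_yM, map_yM, map_pow, xx]

theorem xx_mem (ω : F) : xx ω ∈ (S F).grp := mul_mem (A1_mem _) (A6_mem _)

theorem comm_xx {u : GL chevE6.Idx F} (hu : u ∈ (S F).UU Psi) (ω : F) : Commute u (xx ω) :=
  (comm_Psi hu _ 1).1.mul_right (comm_Psi hu 1 _).2

/-- a diagonal matrix -/
def dg (ζ : Fˣ) : SL(2, F) := ⟨!![ζ, 0; 0, (ζ⁻¹ : Fˣ)], by simp⟩

theorem sl2Hom_dg {r : ℕ} (hr : r < chevE6.nroots) (ζ : Fˣ) : sl2Hom F hr (dg ζ) = hU chevE6 F r ζ := by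
  refine (if_pos rfl).trans ?_
  change xU chevE6 F r (ζ * 0) * hU chevE6 F r ζ = _
  rw [mul_zero, xU_zero, one_mul]

theorem conj_conj' {G : Type*} [Group G] (a b c : G) : a * (b * c * b⁻¹) * a⁻¹ = a * b * c * (a * b)⁻¹ := by group

theorem dg_eq_tau (ζ : Fˣ) : A1 F (dg ζ) * A6 F (dg (ζ ^ 2)) = tau chevE6 F fun i => ζ ^ yy i := by
  have hτ := isTor_tau (F := F) rtOKE6
  rw [A1, A6, sl2Hom_dg, sl2Hom_dg]
  obtain ⟨d, hd⟩ := hτ.H_le (mul_mem ((S F).h_mem_H (rtE6 56) ζ.ne_zero) ((S F).h_mem_H (rtE6 36) (ζ ^ 2).ne_zero))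
  refine hd.symm.trans (congrArg _ (hτ.eq_of_conj (stSys_nondeg rtOKE6) fun i => ?_))
  rw [hd, ← conj_conj', stSys_x, stSys_h, stSys_h, hU_conj_xU (by decide) (ζ ^ 2).ne_zero,
    hU_conj_xU (by decide) ζ.ne_zero, stSys_x, (by decide +kernel : ∀ i, yy i = chevE6.pairing (rtE6 56) ((Φ).simple i) +
      2 * chevE6.pairing (rtE6 36) ((Φ).simple i)) i, zpow_add, zpow_mul]
  simp

theorem prod_E6 {M : Type*} [CommMonoid M] (f : Fin chevE6.rank → M) : ∏ i, f i =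
    f (ndE6 0) * f (ndE6 1) * f (ndE6 2) * f (ndE6 3) * f (ndE6 4) * f (ndE6 5) :=
  Fin.prod_univ_six fun i => f (ndE6 i)

variable [CharP F 2]

theorem exists_diag {ω : F} {ζ : Fˣ} (hω : ω ^ 2 + ω + 1 = 0) (hζ : (ζ : F) ^ 2 + ω * ζ + 1 = 0) :
    orderOf ζ = 5 ∧ ∃ g : SL(2, F), g * yM ω = dg ζ * g ∧ g = slW * smap (frobenius F 2) (smap (frobenius F 2) g) := by
  have : Fact (Nat.Prime 5) := ⟨by norm_num⟩
  have z5 : (ζ : F) ^ 5 = 1 := by grind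
  have z1 : (ζ : F) ≠ 1 := by grind
  have zi : (ζ : F)⁻¹ = ζ ^ 4 := inv_eq_of_mul_eq_one_left (by rw [← z5]; ring)
  refine ⟨orderOf_eq_prime (Units.ext (by simpa using z5)) fun e => z1 (by simp [e]),
    ⟨!![ω * (ζ + 1), ω; ω * (ζ ^ 4 + 1), ω], by rw [Matrix.det_fin_two_of]; grind⟩, Subtype.ext ?_, Subtype.ext ?_⟩
  · change !![ω * (ζ + 1), ω; ω * (ζ ^ 4 + 1), ω] * (!![1, 1; 0, 1] * !![1, 0; ω, 1]) =
      !![(ζ : F), 0; 0, (ζ⁻¹ : Fˣ)] * !![ω * (ζ + 1), ω; ω * (ζ ^ 4 + 1), ω]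
    rw [Units.val_inv_eq_inv_val, zi]
    ext i j; fin_cases i <;> fin_cases j <;> simp <;> grind
  · change !![ω * (ζ + 1), ω; ω * (ζ ^ 4 + 1), ω] = !![0, 1; -1, 0] *
      (!![ω * (ζ + 1), ω; ω * (ζ ^ 4 + 1), ω].map (frobenius F 2)).map (frobenius F 2)
    ext i j; fin_cases i <;> fin_cases j <;> simp [Matrix.mul_apply, frobenius_def] <;> grind

theorem conj_xx {ω : F} {ζ : Fˣ} {g : SL(2, F)} (e1 : g * yM ω = dg ζ * g) :
    A1 F g * A6 F (smap (frobenius F 2) g) * xx ω * (A1 F g * A6 F (smap (frobenius F 2) g))⁻¹ =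
      tau chevE6 F fun i => ζ ^ yy i := by
  have h1 : smap (frobenius F 2) (dg ζ) = dg (ζ ^ 2) := Subtype.ext <| by
    change !![(ζ : F), 0; 0, (ζ⁻¹ : Fˣ)].map (frobenius F 2) = !![((ζ ^ 2 : Fˣ) : F), 0; 0, ((ζ ^ 2)⁻¹ : Fˣ)]
    ext i j; fin_cases i <;> fin_cases j <;> simp [frobenius_def]
  have h2 := congrArg (smap (frobenius F 2)) e1
  rw [map_mul, map_mul, map_yM, h1] at h2
  rw [← dg_eq_tau, mul_inv_eq_iff_eq_mul, xx, (A1_A6 _ _).symm.mul_mul_mul_comm,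
    (A1_A6 _ _).symm.mul_mul_mul_comm, ← map_mul, ← map_mul, ← map_mul, ← map_mul, e1, ← h2]
  rfl

theorem cent_bar {ω : F} {ζ : Fˣ} (hω : ω ^ 2 + ω + 1 = 0) (hζ : (ζ : F) ^ 2 + ω * ζ + 1 = 0) {c : GL chevE6.Idx F}
    (hc : c ∈ (twE6 (frobenius F 2)).Fix) (e : Commute c (xx ω)) : ∃ l ∈ LL F, ∃ l' ∈ LL F, ∃ i : ℕ, ∃ η : Fˣ,
      η ^ 3 = 1 ∧ c = l * (xx ω ^ i * tau chevE6 F (vecE6 ![1, 1, η, 1, η ^ 2, 1])) * l' := by
  obtain ⟨o5, g1, e1, e2⟩ := exists_diag hω hζ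
  have hS := stSys_nondeg (F := F) rtOKE6
  have hτ := isTor_tau (F := F) rtOKE6
  set φ := frobenius F 2
  set T := twE6 φ
  set g := A1 F g1 * A6 F (smap φ g1) with hg
  set n := A1 F slW with hn
  have gm : g ∈ (S F).grp := mul_mem (A1_mem _) (A6_mem _)
  have e3 : g * xx ω * g⁻¹ = tau chevE6 F fun i => ζ ^ yy i := conj_xx e1
  have e4 : g = n * T.σ g := by
    rw [hg, T.σ_mul _ (A1_mem _) _ (A6_mem _), σ_A1, σ_A6, ← (A1_A6 _ _).eq, ← mul_assoc, ← map_mul, ← e2]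
  have hv : ∀ r s, (Φ).chr (fun i => ζ ^ yy i) r = (Φ).chr (fun i => ζ ^ yy i) s ↔ vv r = vv s := fun r s => by
    rw [RootSys.chr_zpow, RootSys.chr_zpow, zpow_eq_zpow_iff_modEq, o5]; rfl
  have hK : (Φ).Ker (fun i => ζ ^ yy i) ⊆ Psi := fun r hr => (vv_zero r).1 <| by
    have := hr.2
    rwa [RootSys.chr_zpow, ← zpow_zero ζ, zpow_eq_zpow_iff_modEq, o5] at this
  have gc : ∀ u ∈ (S F).UU Psi, Commute u g := fun u hu => (comm_Psi hu _ 1).1.mul_right (comm_Psi hu 1 _).2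
  obtain ⟨u, hu, n', hn', w, hw, ha, hw', u', hu', e5⟩ := hτ.bruhat_centralizer hS
    (c := fun i => ζ ^ yy i) (mul_mem (mul_mem gm hc.1) (inv_mem gm)) (by rw [← e3]; exact (e.symm.conj g).eq)
  have u1 := (S F).UU_mono hK hu
  have u2 := (S F).UU_mono (Set.inter_subset_left.trans hK) hu'
  have hn2 : n = nU chevE6 F 56 1 := (sl2Rel F _).hom_slW
  have nN : n ∈ (S F).N := hn2 ▸ (S F).n_one_mem_N (rtE6 56)
  have hn'' : n * T.σ n' * n⁻¹ ∈ (S F).N :=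
    mul_mem (mul_mem nN (T.σ_mem_N (sharp_stSys _ _) hn')) (inv_mem nN)
  obtain ⟨w', -, ha'⟩ := (S F).exists_acts_of_mem_N hn''
  have e6 : u * n' * u' = glm chevE6 φ u * (n * T.σ n' * n⁻¹) * glm chevE6 φ u' := by
    have h1 := congrArg T.σ e5
    rw [T.σ_conj gm hc.1, hc.2, T.σ_mul3 ((S F).UU_le_grp _ hu) ((S F).N_le_grp hn') ((S F).UU_le_grp _ hu'),
      σ_Psi φ u1, σ_Psi φ u2] at h1
    have h2 := (comm_Psi ((df_glm rtOKE6 φ).mem_UU u1) slW 1).1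
    have h3 := (comm_Psi ((df_glm rtOKE6 φ).mem_UU u2) slW 1).1
    rw [← e5, e4, mul_inv_rev, mul_assoc n, mul_assoc n, ← mul_assoc _ _ n⁻¹, h1]
    simp only [← mul_assoc, h2.eq, hn]
    rw [mul_assoc _ _ (A1 F slW)⁻¹, h3.inv_right.eq, ← mul_assoc]
  have U1 : u ∈ (S F).U := (S F).UU_le_U (fun _ h => h.1) hu
  have U2 := (S F).UU_mono Set.inter_subset_right hu'
  obtain rfl := hS.acts_eq_of_eq hn' hn'' ha ha' ((S F).U_le_B U1) ((S F).U_le_B ((S F).UU_le_U (fun _ h => h.1) U2))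
    ((S F).U_le_B ((df_glm rtOKE6 φ).mem_UU U1)) ((S F).U_le_B ((df_glm rtOKE6 φ).mem_UU ((S F).UU_le_U (fun _ h => h.1) U2))) e6
  obtain ⟨-, e7, e8, e9⟩ := hS.bruhat_unique hn' hn'' ha ha' U1 U2 ((df_glm rtOKE6 φ).mem_UU U1) ((df_glm rtOKE6 φ).mem_UU U2) e6
  have l1 := mem_LL_of_fix ((Φ).closed_Ker _) (fun _ h => h.1) hK hu e7.symm
  have l2 := mem_LL_of_fix (((Φ).closed_Ker _).inter ((Φ).closed_Inv hw)) (fun _ h => h.1.1)
    (Set.inter_subset_left.trans hK) hu' e9.symm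
  obtain ⟨d, l, hl, rfl⟩ := exists_LL hn' ha fun r => (hv _ _).1 (hw' r)
  have dm : tau chevE6 F d ∈ (S F).grp := by
    simpa using mul_mem ((S F).N_le_grp hn') (inv_mem ((S F).UU_le_grp _ (LL_le hl)))
  rw [T.σ_mul _ dm _ ((S F).UU_le_grp _ (LL_le hl)), σ_Psi φ (LL_le hl), glm_LL φ hl, mul_assoc n, mul_assoc _ l,
    (comm_Psi (LL_le hl) slW 1).1.inv_right.eq, ← mul_assoc, ← mul_assoc, mul_left_inj] at e8
  have key : ∀ r s : Fin chevE6.nroots, refl chevE6 56 (rhoE6 r) = s → (Φ).chr d s = (Φ).chr d r ^ 2 := by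
    intro r s hrs
    have hr := (by decide : ∀ r < 72, rhoE6 r < 72) r r.2
    have h0 : ∀ t, n * xU chevE6 F (rhoE6 r) t * n⁻¹ = xU chevE6 F s t := fun t => by
      rw [hn2, nU_conj_xU (by decide) hr one_ne_zero, hrs]
      rcases eta_eq (D := chevE6) (r := 56) (by decide) hr with h | h <;> simp [h, CharTwo.neg_eq]
    have h1 := congrArg T.σ (hτ.conj d r 1)
    rw [T.σ_conj dm ((S F).x_mem_grp _ _), stSys_x, stSys_x, σ_x φ r.2, σ_x φ r.2, map_one, mul_one] at h1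
    have h2 := hτ.conj d s 1
    rw [stSys_x, stSys_x, ← h0, mul_one, e8, ← hn, show ∀ a b : GL chevE6.Idx F, n * a * n⁻¹ * (n * b * n⁻¹) *
      (n * a * n⁻¹)⁻¹ = n * (a * b * a⁻¹) * n⁻¹ from fun a b => by group, h1, h0] at h2
    exact Units.ext (xU_injective s.2 h2).symm
  have k0 := key ((Φ).simple (ndE6 0)) ((Φ).simple (ndE6 5)) (by decide +kernel)
  have k1 := key ((Φ).simple (ndE6 1)) ((Φ).simple (ndE6 1)) (by decide +kernel)
  have k2 := key ((Φ).simple (ndE6 2)) ((Φ).simple (ndE6 4)) (by decide +kernel)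
  have k3 := key ((Φ).simple (ndE6 3)) ((Φ).simple (ndE6 3)) (by decide +kernel)
  have k4 := key ((Φ).simple (ndE6 4)) (rtE6 57) (by decide +kernel)
  have k5 := key ((Φ).simple (ndE6 5)) ((Φ).neg ((Φ).simple (ndE6 0))) (by decide +kernel)
  rw [show (Φ).chr d (rtE6 57) = d (ndE6 0) * d (ndE6 2) by
    rw [RootSys.chr, prod_E6]
    simp [(by decide +kernel : ∀ i, (Φ).rt (rtE6 57) (ndE6 i) = ![1, 0, 1, 0, 0, 0] i)]] at k4
  simp only [RootSys.chr_neg, RootSys.chr_simple] at k0 k1 k2 k3 k4 k5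
  set a := d (ndE6 2)
  have a0 : d (ndE6 0) = a ^ 3 := mul_right_cancel (b := a) (by rw [k4, k2]; group)
  have a15 : a ^ 15 = 1 := by
    rw [k0, a0, inv_eq_iff_mul_eq_one] at k5
    rw [← k5]; group
  obtain ⟨i, -, hi⟩ := (IsPrimitiveRoot.iff_orderOf.2 o5).eq_pow_of_mem_rootsOfUnity
    (ξ := a ^ 9) (by rw [mem_rootsOfUnity, ← pow_mul, show 9 * 5 = 15 * 3 from rfl, pow_mul, a15, one_pow])
  have h2 : ∀ k l : ℤ, k ≡ l [ZMOD (15 : ℕ)] → a ^ k = a ^ l := fun k l h =>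
    zpow_eq_zpow_iff_modEq.2 (h.of_dvd (Int.natCast_dvd_natCast.2 (orderOf_dvd_of_pow_eq_one a15)))
  have hd : d = (fun i => ζ ^ yy i) ^ i * vecE6 ![1, 1, a ^ 10, 1, (a ^ 10) ^ 2, 1] := by
    have b1 : d (ndE6 1) = 1 := by simpa [sq] using k1
    have b3 : d (ndE6 3) = 1 := by simpa [sq] using k3
    have h1 : ∀ k : ℤ, (ζ ^ k) ^ i = a ^ (9 * k) := fun k => by
      rw [← zpow_natCast, ← zpow_mul, mul_comm, zpow_mul, zpow_natCast, hi, ← zpow_natCast, ← zpow_mul]; rfl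
    refine funext (forall_ndE6.2 ?_)
    simp only [Pi.mul_apply, Pi.pow_apply, h1, yy, vecE6_nd, k0, a0, b1, b3, k2]
    simp only [← zpow_natCast, ← zpow_mul]
    refine ⟨(h2 _ _ (by decide)).trans (mul_one _).symm, ?_, ?_, ?_, ?_, (h2 _ _ (by decide)).trans (mul_one _).symm⟩
    · simp
    · exact ((zpow_one a).symm.trans (h2 _ _ (by decide))).trans (zpow_add _ _ _)
    · simp
    · exact (h2 _ _ (by decide)).trans (zpow_add _ _ _)
  refine ⟨u, l1, l * u', mul_mem hl l2, i, a ^ 10, by rw [← pow_mul, show 10 * 3 = 15 * 2 from rfl, pow_mul, a15, one_pow], ?_⟩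
  have h3 : Commute (tau chevE6 F (vecE6 ![1, 1, a ^ 10, 1, (a ^ 10) ^ 2, 1])) g := by
    have h1 : ∀ r ∈ [56, 15, 36, 35], ∀ t, Commute (tau chevE6 F (vecE6 ![1, 1, a ^ 10, 1, (a ^ 10) ^ 2, 1]))
        (xU chevE6 F r t) := fun r hr t => by
      have h1 := hτ.conj (vecE6 ![1, 1, a ^ 10, 1, (a ^ 10) ^ 2, 1]) ⟨r, (by decide : ∀ r ∈ [56, 15, 36, 35], r < 72) r hr⟩ t
      rw [RootSys.chr, prod_E6, stSys_x, stSys_x] at h1
      simp only [vecE6_nd, Matrix.cons_val, one_zpow, one_mul, mul_one, ← zpow_natCast, ← zpow_mul, ← zpow_add] at h1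
      rw [h2 _ 0 ((by decide +kernel : ∀ s : Fin chevE6.nroots, s.1 ∈ [56, 15, 36, 35] → ((10 : ℕ) : ℤ) * (Φ).rt s (ndE6 2) +
        ((10 : ℕ) : ℤ) * (2 : ℕ) * (Φ).rt s (ndE6 4) ≡ 0 [ZMOD (15 : ℕ)]) _ hr)] at h1
      simpa [mul_inv_eq_iff_eq_mul, commute_iff_eq, ← pow_mul] using h1
    exact (comm_A1 (fun r hr => h1 r (by grind)) _).mul_right (comm_A6 (fun r hr => h1 r (by grind)) _)
  rw [hd, map_mul, map_pow, ← e3, conj_pow] at e5
  have h4 := gc _ (LL_le l1)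
  have h5 := gc _ (LL_le (mul_mem hl l2))
  calc c = g⁻¹ * (g * c * g⁻¹) * g := by group
    _ = _ := by
      rw [e5]
      simp only [mul_assoc]
      rw [← mul_assoc l, h5.eq, ← mul_assoc _ g (l * u'), h3.eq, mul_assoc g, inv_mul_cancel_left, ← mul_assoc u, h4.eq,
        mul_assoc, inv_mul_cancel_left]

theorem orderOf_xx_bar {ω : F} {ζ : Fˣ} (hω : ω ^ 2 + ω + 1 = 0) (hζ : (ζ : F) ^ 2 + ω * ζ + 1 = 0) :
    orderOf (xx ω) = 5 := by
  obtain ⟨o5, g1, e1, -⟩ := exists_diag hω hζ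
  replace e1 := conj_xx e1
  have : Fact (Nat.Prime 5) := ⟨by norm_num⟩
  rw [← MulAut.conj_apply] at e1
  rw [← (MulAut.conj _).orderOf_eq, e1, orderOf_injective _ ((isTor_tau rtOKE6).inj (stSys_nondeg rtOKE6))]
  refine orderOf_eq_prime (funext fun i => ?_) fun e => ?_
  · rw [Pi.pow_apply, ← zpow_natCast, ← zpow_mul, mul_comm, zpow_mul, zpow_natCast, ← o5, pow_orderOf_eq_one, one_zpow]
    rfl
  · simp [show ζ = 1 by simpa [yy, vecE6_nd] using congrFun e (ndE6 2)] at o5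

omit [CharP F 2] in
theorem cent_xx [Fintype F] (hK : Fintype.card F = 4) {ω : F} (hω : ω ^ 2 + ω + 1 = 0) :
    orderOf (xx ω) = 5 ∧ xx ω ∈ twistedE6 F 2 ∧ ∀ c ∈ twistedE6 F 2, Commute c (xx ω) →
      ∃ i : ℕ, ∃ l ∈ LL F, c = xx ω ^ i * l := by
  classical
  have : CharP F 2 := charP_of_card_eq_prime_pow (f := 2) hK
  have : Fact (Nat.Prime 3) := ⟨by norm_num⟩
  have hφ : ∀ t : F, frobenius F 2 t = t ^ 2 := fun _ => rfl
  let Ω := AlgebraicClosure F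
  let f := algebraMap F Ω
  have hω' : f ω ^ 2 + f ω + 1 = 0 := by simpa using congrArg f hω
  obtain ⟨z, hz⟩ : ∃ z : Ω, z ^ 2 + f ω * z + 1 = 0 := by
    obtain ⟨z, hz⟩ := IsAlgClosed.exists_root (Polynomial.X ^ 2 + Polynomial.C (f ω) * Polynomial.X + 1 : Polynomial Ω)
      (by rw [show Polynomial.degree _ = 2 by compute_degree!]; norm_num)
    exact ⟨z, by simpa using hz⟩
  have z0 : z ≠ 0 := by rintro rfl; simp at hz
  have inj := glm_injective (D := chevE6) f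
  rw [eq_FixE6 hφ (frob2 hφ hK)]
  refine ⟨by rw [← orderOf_injective _ inj, glm_xx, orderOf_xx_bar (ζ := Units.mk0 z z0) hω' hz], ⟨xx_mem ω, ?_⟩,
    fun c hc e => ?_⟩
  · rw [xx, Tw.σ_mul _ _ (A1_mem _) _ (A6_mem _), σ_A1, σ_A6, map_yM, map_yM, ← hφ, frob2 hφ hK, (A1_A6 _ _).eq]
  have h1 : glm chevE6 f c ∈ (twE6 (frobenius Ω 2)).Fix :=
    ⟨stSys_grp rtOKE6 (F := Ω) ▸ glm_mem f (stSys_grp rtOKE6 (F := F) ▸ hc.1),
      by rw [σ_glm (frobenius F 2) _ f (fun t => by simp [frobenius_def]) hc.1, hc.2]⟩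
  obtain ⟨l, hl, l', hl', i, η, hη, e1⟩ := cent_bar (ζ := Units.mk0 z z0) hω' hz h1 (glm_xx f ω ▸ e.map _)
  rw [← map_LL f] at hl hl'
  obtain ⟨l, hl, rfl⟩ := hl
  obtain ⟨l', hl', rfl⟩ := hl'
  have ω0 : ω ≠ 0 := by rintro rfl; simp at hω
  have ω3 : Units.mk0 ω ω0 ^ 3 = 1 := Units.ext (by simp; grind)
  obtain ⟨j, -, hj⟩ := (show IsPrimitiveRoot (Units.map (f : F →* Ω) (Units.mk0 ω ω0)) 3 from
    IsPrimitiveRoot.iff_orderOf.2 (orderOf_eq_prime (by rw [← map_pow, ω3, map_one]) fun e => by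
      have : ω = 1 := f.injective (by simpa using congrArg Units.val e)
      grind)).eq_pow_of_mem_rootsOfUnity (ξ := η) hη
  have e2 : tau chevE6 Ω (vecE6 ![1, 1, η, 1, η ^ 2, 1]) =
      glm chevE6 f (tau chevE6 F (vecE6 ![1, 1, Units.mk0 ω ω0 ^ j, 1, (Units.mk0 ω ω0 ^ j) ^ 2, 1])) := by
    rw [glm_tau, ← hj]
    exact congrArg _ (funext (forall_ndE6.2 (by simp [vecE6_nd])))
  rw [e2, ← glm_xx, ← map_pow, ← map_mul, ← map_mul, ← map_mul] at e1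
  obtain rfl := inj e1
  have m1 := (S F).UU_le_grp _ (LL_le hl)
  have m2 := (S F).UU_le_grp _ (LL_le hl')
  have h2 := CfsgLib.ChevFold.inv_of_tau_mem (fun x => by
    rw [← orderOf_dvd_iff_pow_eq_one, show 3 = Fintype.card Fˣ by rw [Fintype.card_units, hK]]; exact orderOf_dvd_card)
    (tau_mem_H ((mul_mem_cancel_left (pow_mem (xx_mem ω) i)).1 ((mul_mem_cancel_left m1).1
      ((mul_mem_cancel_right m2).1 hc.1))))
  have h3 : Units.mk0 ω ω0 ^ j = 1 := by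
    simp only [vecE6_nd, Matrix.cons_val, one_mul, one_pow, mul_one, ← pow_mul, ← pow_add] at h2
    rw [← h2, show j * 2 + j * 2 = 3 * j + j by ring, pow_add, pow_mul, ω3, one_pow, one_mul]
  refine ⟨i, l * l', mul_mem hl hl', ?_⟩
  rw [h3, show vecE6 ![1, 1, 1, 1, 1 ^ 2, 1] = (1 : Fin chevE6.rank → Fˣ) from
    funext (forall_ndE6.2 (by simp [vecE6_nd])), map_one, mul_one, ((comm_xx (LL_le hl) ω).pow_right i).eq, mul_assoc]

end CfsgLib.E62
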